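import Cfsg.Agent.H776.P4.Stmts
import Cfsg.Agent.H647.PU.Co

/-!
# S5210: StE3 (helper932)

* `stE3 : StChain → StFF → StE3`.
-/

set_option autoImplicit false

namespace Cfsg.Agent.H932.P4

open Cfsg Cfsg.FusionSystem Cfsg.Agent.H756.PU Cfsg.Agent.H776.P4
open Cfsg.Agent.H647.PU (com_symm hull_inv le_hull com_hull pow_hull exists_star_ne)

universe u

section coord

variable {K : Type u} [Field K] [StarRing K]

theorem mem_PZ {g : PG K} : g ∈ PZ K ↔ g.r = 0 ∧ g.b = 0 ∧ g.c = 0 := Iff.rfl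
theorem mem_PY {g : PG K} : g ∈ PY K ↔ g.r = 0 ∧ g.c = 0 := Iff.rfl
theorem mem_PQ {g : PG K} : g ∈ PQ K ↔ g.c = 0 := Iff.rfl

theorem PZ_le_PY : PZ K ≤ PY K := fun _ h => ⟨h.1, h.2.2⟩
theorem PY_le_PQ : PY K ≤ PQ K := fun _ h => h.2

theorem comm_aux {x y z : PG K} (h : z * (y * x) = x * y) : z.r = 0 ∧ z.c = 0 ∧
    z.b = x.r * y.c - y.r * x.c ∧
    z.a = x.r * star y.b + star x.r * y.b + x.r * star x.r * y.c - y.r * star x.b - star y.r * x.b
      - y.r * star y.r * x.c := by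
  have hr := congrArg PG.r h
  have hc := congrArg PG.c h
  have hb := congrArg PG.b h
  have ha := congrArg PG.a h
  simp only [PG.mul_r, PG.mul_a, PG.mul_b, PG.mul_c] at hr ha hb hc
  have er : z.r = 0 := by linear_combination hr
  have ec : z.c = 0 := by linear_combination hc
  rw [er] at hb ha
  simp only [star_zero, zero_mul, add_zero] at hb ha
  exact ⟨er, ec, by linear_combination hb, by linear_combination ha⟩

theorem comm_eq (x y : PG K) : (x * y * x⁻¹ * y⁻¹) * (y * x) = x * y := by group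

theorem comm_r (x y : PG K) : (x * y * x⁻¹ * y⁻¹).r = 0 := (comm_aux (comm_eq x y)).1
theorem comm_c (x y : PG K) : (x * y * x⁻¹ * y⁻¹).c = 0 := (comm_aux (comm_eq x y)).2.1
theorem comm_b (x y : PG K) : (x * y * x⁻¹ * y⁻¹).b = x.r * y.c - y.r * x.c := (comm_aux (comm_eq x y)).2.2.1
theorem comm_a (x y : PG K) : (x * y * x⁻¹ * y⁻¹).a = x.r * star y.b + star x.r * y.b + x.r * star x.r * y.c
    - y.r * star x.b - star y.r * x.b - y.r * star y.r * x.c := (comm_aux (comm_eq x y)).2.2.2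

/-- `S' ≤ Y` -/
theorem comm_mem_PY (x y : PG K) : x * y * x⁻¹ * y⁻¹ ∈ PY K := ⟨comm_r x y, comm_c x y⟩

theorem comm_mem_PZ_iff {x y : PG K} : x * y * x⁻¹ * y⁻¹ ∈ PZ K ↔ x.r * y.c - y.r * x.c = 0 := by
  rw [mem_PZ, ← comm_b x y]
  exact ⟨fun h => h.2.1, fun h => ⟨comm_r x y, h, comm_c x y⟩⟩

/-- `[Q, Q] ≤ Z` -/
theorem comm_PQ {x y : PG K} (hx : x ∈ PQ K) (hy : y ∈ PQ K) : x * y * x⁻¹ * y⁻¹ ∈ PZ K := by
  rw [mem_PQ] at hx hy
  rw [comm_mem_PZ_iff, hx, hy]
  ring

/-- `[S, Y] ≤ Z` -/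
theorem comm_PY (x : PG K) {y : PG K} (hy : y ∈ PY K) : x * y * x⁻¹ * y⁻¹ ∈ PZ K := by
  rw [mem_PY] at hy
  rw [comm_mem_PZ_iff, hy.1, hy.2]
  ring

/-- `Z` is central -/
theorem PZ_comm (g : PG K) {z : PG K} (hz : z ∈ PZ K) : g * z = z * g := by
  obtain ⟨h1, h2, h3⟩ := hz
  ext
  · simp [h1]
  · simp [PG.mul_a, h1, h2, h3, add_comm]
  · simp [PG.mul_b, h1, h2, h3]
  · simp [h3]

/-- the coordinate `c` -/
def hcH : PG K →* Multiplicative K where
  toFun g := Multiplicative.ofAdd g.c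
  map_one' := rfl
  map_mul' _ _ := rfl

theorem hcH_ker : (hcH (K := K)).ker = PQ K := by
  ext g
  rw [MonoidHom.mem_ker, mem_PQ]
  exact Multiplicative.ofAdd.apply_eq_iff_eq (x := g.c) (y := (0 : K))

/-- the coordinate `r` on `Q` -/
def hrH : PQ K →* Multiplicative K where
  toFun g := Multiplicative.ofAdd (g : PG K).r
  map_one' := rfl
  map_mul' _ _ := rfl

theorem hrH_ker : (hrH (K := K)).ker = (PY K).subgroupOf (PQ K) := by
  ext g
  rw [MonoidHom.mem_ker, Subgroup.mem_subgroupOf, mem_PY]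
  have e : hrH g = 1 ↔ (g : PG K).r = 0 :=
    Multiplicative.ofAdd.apply_eq_iff_eq (x := (g : PG K).r) (y := (0 : K))
  rw [e]
  exact ⟨fun h => ⟨h, g.2⟩, fun h => h.1⟩

theorem index_PY_PQ : (PY K).relIndex (PQ K) = Nat.card K := by
  rw [Subgroup.relIndex, ← hrH_ker, Subgroup.index_ker]
  have h1 : (hrH (K := K)).range = ⊤ := by
    rw [MonoidHom.range_eq_top]
    intro t
    exact ⟨⟨⟨Multiplicative.toAdd t, 0, 0, 0, star_zero _, star_zero _⟩, rfl⟩, rfl⟩
  rw [h1, Nat.card_congr Subgroup.topEquiv.toEquiv]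
  exact Nat.card_congr Multiplicative.toAdd

variable (K) in
/-- the fixed elements of `star` -/
def FX : AddSubgroup K where
  carrier := {a | star a = a}
  zero_mem' := star_zero _
  add_mem' := by
    intro a b ha hb
    show star (a + b) = a + b
    rw [star_add]
    exact congrArg₂ _ ha hb
  neg_mem' := by
    intro a ha
    show star (-a) = -a
    rw [star_neg]
    exact congrArg _ ha

end coord

section card

variable {K : Type u} [Field K] [StarRing K] {p n : ℕ}

theorem card_FX_lt (hK : HypK K p n) : Nat.card (FX K) < Nat.card K := by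
  have := hK.fin
  obtain ⟨s, hs⟩ := exists_star_ne hK
  have h1 : FX K ≠ ⊤ := by
    intro h
    have h2 : s ∈ FX K := by rw [h]; trivial
    exact hs h2
  have h2 := AddSubgroup.card_mul_index (FX K)
  have h3 : (FX K).index ≠ 1 := fun h => h1 (AddSubgroup.index_eq_one.1 h)
  have h4 : (FX K).index ≠ 0 := AddSubgroup.index_ne_zero_of_finite
  have h5 : 0 < Nat.card (FX K) := Nat.card_pos
  have h6 : 2 ≤ (FX K).index := by omega
  nlinarith

theorem finite_PG (hK : HypK K p n) : Finite (PG K) := by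
  have := hK.fin
  refine Finite.of_injective (fun g : PG K => (g.r, g.a, g.b, g.c)) ?_
  intro g h hgh
  simp only [Prod.mk.injEq] at hgh
  obtain ⟨h1, h2, h3, h4⟩ := hgh
  exact PG.ext h1 h2 h3 h4

theorem card_PG_le [Finite K] : Nat.card (PG K) ≤ Nat.card K ^ 2 * Nat.card (FX K) ^ 2 := by
  have h1 : Nat.card (PG K) ≤ Nat.card ((K × K) × (FX K × FX K)) := by
    refine Nat.card_le_card_of_injective (fun g : PG K => ((g.r, g.b), ((⟨g.a, g.ha⟩ : FX K), (⟨g.c, g.hc⟩ : FX K)))) ?_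
    intro g h hgh
    simp only [Prod.mk.injEq] at hgh
    obtain ⟨⟨h1, h2⟩, h3, h4⟩ := hgh
    exact PG.ext h1 (congrArg Subtype.val h3) h2 (congrArg Subtype.val h4)
  refine h1.trans (le_of_eq ?_)
  simp only [Nat.card_prod]
  ring

theorem card_PY_le [Finite K] : Nat.card (PY K) ≤ Nat.card K * Nat.card (FX K) := by
  rw [← Nat.card_prod]
  refine Nat.card_le_card_of_injective (fun g : PY K => ((g : PG K).b, (⟨(g : PG K).a, (g : PG K).ha⟩ : FX K))) ?_
  rintro ⟨g, g1, g2⟩ ⟨h, h1, h2⟩ hgh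
  simp only [Prod.mk.injEq] at hgh
  exact Subtype.ext (PG.ext (g1.trans h1.symm) (congrArg Subtype.val hgh.2) hgh.1 (g2.trans h2.symm))

theorem le_card_PQ [Finite K] [Finite (PG K)] : Nat.card K ^ 2 * Nat.card (FX K) ≤ Nat.card (PQ K) := by
  have h1 : Nat.card ((K × K) × FX K) ≤ Nat.card (PQ K) := by
    refine Nat.card_le_card_of_injective (fun x : (K × K) × FX K =>
      (⟨⟨x.1.1, x.2, x.1.2, 0, x.2.2, star_zero _⟩, rfl⟩ : PQ K)) ?_
    rintro ⟨⟨r, b⟩, a⟩ ⟨⟨r', b'⟩, a'⟩ h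
    have h0 := congrArg Subtype.val h
    have k1 : r = r' := congrArg PG.r h0
    have k2 : (a : K) = a' := congrArg PG.a h0
    have k3 : b = b' := congrArg PG.b h0
    rw [k1, k3, Subtype.ext k2]
  refine le_trans (le_of_eq ?_) h1
  simp only [Nat.card_prod]
  ring

/-- the count -/
theorem false_of_card {G : Type*} [Group G] [Finite G] {B Q T : Subgroup G} (hB : Nat.card B = Nat.card Q)
    (hT : B ⊓ Q ≤ T) (h : Nat.card G * Nat.card T < Nat.card Q ^ 2) : False := by
  have h1 : Nat.card (B ⊓ Q : Subgroup G) * (B ⊓ Q).relIndex B = Nat.card B := by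
    rw [← Subgroup.relIndex_bot_left, ← Subgroup.relIndex_bot_left (H := B)]
    exact Subgroup.relIndex_mul_relIndex _ _ _ bot_le inf_le_left
  have h2 : Nat.card Q * Q.index = Nat.card G := Subgroup.card_mul_index Q
  have h3 : (B ⊓ Q).relIndex B ≤ Q.index := by
    rw [Subgroup.inf_relIndex_left, ← Subgroup.relIndex_top_right]
    exact Subgroup.relIndex_le_of_le_right le_top (by
      rw [Subgroup.relIndex]
      exact Subgroup.FiniteIndex.index_ne_zero)
  have h4 : Nat.card (B ⊓ Q : Subgroup G) ≤ Nat.card T := Subgroup.card_le_of_le hT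
  have h5 : Nat.card B * Nat.card Q ≤ Nat.card G * Nat.card T := by
    calc Nat.card B * Nat.card Q = Nat.card (B ⊓ Q : Subgroup G) * ((B ⊓ Q).relIndex B * Nat.card Q) := by
          rw [← h1]; ring
      _ ≤ Nat.card T * (Q.index * Nat.card Q) := Nat.mul_le_mul h4 (Nat.mul_le_mul_right _ h3)
      _ = Nat.card G * Nat.card T := by rw [← h2]; ring
  rw [hB, ← pow_two] at h5
  omega

/-- a subgroup of order `|Q|` which is abelian modulo `Z` is contained in `Q` -/
theorem le_PQ_of_comm (hK : HypK K p n) {B : Subgroup (PG K)} (hB : Nat.card B = Nat.card (PQ K))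
    (hc : ∀ x ∈ B, ∀ y ∈ B, x * y * x⁻¹ * y⁻¹ ∈ PZ K) : B ≤ PQ K := by
  have hfin := finite_PG hK
  have hKf := hK.fin
  by_contra hcon
  obtain ⟨x, hx, hxQ⟩ := Set.not_subset.mp hcon
  have hxc : x.c ≠ 0 := fun h => hxQ h
  set k := Nat.card K with hk
  set t := Nat.card (FX K) with ht
  have htk : t < k := card_FX_lt hK
  have ht0 : 0 < t := Nat.card_pos
  have hk0 : 0 < k := by omega
  refine false_of_card (T := PY K) hB ?_ ?_
  · intro y hy
    have h1 := comm_mem_PZ_iff.1 (hc x hx y hy.1)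
    have h2 : y.c = 0 := hy.2
    rw [h2, mul_zero, zero_sub, neg_eq_zero, mul_eq_zero] at h1
    exact ⟨h1.resolve_right hxc, h2⟩
  · calc Nat.card (PG K) * Nat.card (PY K) ≤ (k ^ 2 * t ^ 2) * (k * t) := Nat.mul_le_mul card_PG_le card_PY_le
      _ = k ^ 3 * t ^ 2 * t := by ring
      _ < k ^ 3 * t ^ 2 * k := Nat.mul_lt_mul_of_pos_left htk (by positivity)
      _ = (k ^ 2 * t) ^ 2 := by ring
      _ ≤ _ := Nat.pow_le_pow_left le_card_PQ 2

end card

/-- **(E3)** -/
theorem stE3 (hChain : StChain.{u}) (hFF : StFF.{u}) : StE3.{u} := by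
  intro K _ _ p n hK E Γ hE hY hZ
  have hfin : Finite K := hK.fin
  have hfinP := finite_PG hK
  have hZE : PZ K ≤ E := hZ.1
  have hZn : ∀ e ∈ E, ∀ x ∈ PZ K, e * x * e⁻¹ ∈ PZ K := by
    intro e _ x hx
    rw [PZ_comm e hx, mul_inv_cancel_right]
    exact hx
  have hQZ : ∀ x ∈ PQ K, ∀ m ∈ PZ K, x * m = m * x := fun x _ m hm => PZ_comm x hm
  have hQZ' : Com (PQ K) (PZ K) (PZ K) := fun x _ m hm => by
    rw [PZ_comm x hm]
    simp
  -- `Q ≤ E`
  have hQE : PQ K ≤ E := by
    by_contra hQ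
    set M : Subgroup (PG K) := hull Γ (PY K) with hM
    have hMinv : Inv Γ M := hull_inv _
    have hYM : PY K ≤ M := le_hull hY
    have hZM : PZ K ≤ M := PZ_le_PY.trans hYM
    have hEM : Com E M (PZ K) := com_hull hZ hZn (fun e _ x hx _ => comm_PY e hx)
    have hchar := hK.char
    have hpow : ∀ (g : PG K) (j : ℕ), (g ^ j).r = j * g.r ∧ (g ^ j).c = j * g.c := by
      intro g j
      induction j with
      | zero => simp
      | succ j ih =>
        rw [pow_succ, PG.mul_r, PG.mul_c, ih.1, ih.2]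
        push_cast
        exact ⟨by ring, by ring⟩
    have hpowY : ∀ g : PG K, g ^ p ∈ PY K := by
      intro g
      obtain ⟨h1, h2⟩ := hpow g p
      rw [CharP.cast_eq_zero, zero_mul] at h1 h2
      exact ⟨h1, h2⟩
    have hpowZ : ∀ y ∈ PY K, y ^ p ∈ PZ K := by
      intro y hy
      have h1 : ∀ j : ℕ, (y ^ j).b = j * y.b := by
        intro j
        induction j with
        | zero => simp
        | succ j ih =>
          rw [pow_succ, PG.mul_b, ih, (hpow y j).1, hy.1]
          push_cast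
          ring
      have h2 := hpowY y
      refine ⟨h2.1, ?_, h2.2⟩
      rw [h1, CharP.cast_eq_zero, zero_mul]
    have hMp : ∀ m ∈ M, m ^ p ∈ PZ K := pow_hull p hZ hZn hEM (fun x hx _ => hpowZ x hx)
    -- `M` is not contained in `Q`
    have hMQ : ¬ M ≤ PQ K := by
      intro hle
      apply hQ
      exact hChain hE (PZ K) (PZ K) M hZ hZ hMinv le_rfl hZM (PQ K) le_top
        (fun x _ e _ => hYM (comm_mem_PY x e)) (fun x hx m hm => comm_PQ hx (hle hm)) hQZ' hQZ
    obtain ⟨m, hmM, hmQ⟩ := Set.not_subset.mp hMQ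
    have hmc : m.c ≠ 0 := fun h => hmQ h
    -- `E ∩ Q = Y`
    have hEY : E ⊓ PQ K = PY K := by
      apply le_antisymm
      · rintro y ⟨hyE, hyQ⟩
        have h1 := comm_mem_PZ_iff.1 (hEM y hyE m hmM)
        have h2 : y.c = 0 := hyQ
        rw [h2, mul_zero, sub_zero, mul_eq_zero] at h1
        exact ⟨h1.resolve_right hmc, h2⟩
      · exact le_inf hY PY_le_PQ
    have hidx : E.relIndex (PQ K) = Nat.card K := by
      rw [← Subgroup.inf_relIndex_right, hEY, index_PY_PQ]
    -- `|M : M ∩ Q| ≤ |k|`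
    have hQM : (PQ K).relIndex M = Nat.card (M.map hcH) := by
      rw [← hcH_ker, Subgroup.relIndex_ker]
    have hcK : Nat.card (M.map (hcH (K := K))) ≤ Nat.card (FX K) := by
      refine Nat.card_le_card_of_injective (fun g : M.map (hcH (K := K)) =>
        (⟨Multiplicative.toAdd (g : Multiplicative K), by
          obtain ⟨x, -, hx⟩ := g.2
          rw [← hx]
          exact x.hc⟩ : FX K)) ?_
      intro g h hgh
      have h5 : Multiplicative.toAdd (g : Multiplicative K) = Multiplicative.toAdd (h : Multiplicative K) :=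
        congrArg (fun x : FX K => (x : K)) hgh
      exact Subtype.ext (Multiplicative.toAdd.injective h5)
    have hcm : (cmod (PQ K) M (PZ K)).relIndex M ≤ (PQ K).relIndex M := by
      have h1 : (PQ K ⊓ M) ≤ cmod (PQ K) M (PZ K) := by
        rintro g ⟨hg1, hg2⟩
        exact Subgroup.subset_closure ⟨hg2, fun y hy => comm_PQ hy hg1⟩
      have h2 := Subgroup.relIndex_dvd_of_le_left M h1
      rw [Subgroup.inf_relIndex_right] at h2
      apply Nat.le_of_dvd _ h2
      rw [hQM]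
      exact Nat.card_pos
    have hlt : (cmod (PQ K) M (PZ K)).relIndex M < E.relIndex (PQ K) := by
      rw [hidx]
      exact (hcm.trans (hQM.le.trans hcK)).trans_lt (card_FX_lt hK)
    have hff := hFF hE (PZ K) M (PY K) (PQ K) hZ hMinv hZM hYM hEM hMp ?_ ?_ ?_ hQ
      (fun x _ y _ => hY (comm_mem_PY x y)) (fun x _ => hY (hpowY x)) (fun x _ e _ => hYM (comm_mem_PY x e)) hQZ hlt.le
    · obtain ⟨-, h2, -⟩ := hff
      exact hlt.ne h2
    · rw [sup_eq_left.mpr hZM]
    · intro x _ z hz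
      exact comm_PY x hz
    · -- `Q` normalizes `E`
      refine le_inf le_top ?_
      intro y _
      rw [Subgroup.mem_normalizer_iff]
      have key : ∀ (z : PG K), ∀ e ∈ E, z * e * z⁻¹ ∈ E := by
        intro z e he
        have h2 := E.mul_mem (hY (comm_mem_PY z e)) he
        simpa using h2
      intro e
      constructor
      · intro he
        exact key y e he
      · intro he
        have h1 := key y⁻¹ _ he
        have e1 : y⁻¹ * (y * e * y⁻¹) * y⁻¹⁻¹ = e := by group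
        rwa [e1] at h1
  -- `Q` is invariant
  refine ⟨hQE, hQE, fun γ hγ e he => ?_⟩
  set B : Subgroup (PG K) := (((PQ K).subgroupOf E).map γ.toMonoidHom).map E.subtype with hB
  have h1 : Nat.card B = Nat.card (PQ K) := by
    rw [hB, Subgroup.card_map_of_injective E.subtype_injective,
      Subgroup.card_map_of_injective (f := γ.toMonoidHom) γ.injective]
    exact Nat.card_congr (Subgroup.subgroupOfEquivOfLe hQE).toEquiv
  have h2 : B ≤ PQ K := by
    refine le_PQ_of_comm hK h1 ?_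
    rintro _ ⟨_, ⟨x, hx, rfl⟩, rfl⟩ _ ⟨_, ⟨y, hy, rfl⟩, rfl⟩
    have h3 : ((x * y * x⁻¹ * y⁻¹ : E) : PG K) ∈ PZ K := comm_PQ hx hy
    have h4 := hZ.2 γ hγ _ h3
    rw [map_mul, map_mul, map_mul, map_inv, map_inv] at h4
    exact h4
  exact h2 ⟨γ e, ⟨e, he, rfl⟩, rfl⟩

end Cfsg.Agent.H932.P4
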